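import Cfsg.Agent.H122.Cyc.Order
import Cfsg.Agent.H912.Bd2
import Cfsg.Agent.H915.LD

/-!
# Elements of prime order conjugate to their powers: bounds for the dimension (helper489)

* `bound` : `X ^ s = 1`, `X ≠ 1`, `Y X Y⁻¹ = X ^ k`, `k ^ i ≠ 1` modulo `s` for `0 < i < t` : `t ≤ n`;
* `bound_inv` : the same for an isometry `X` of a nondegenerate bilinear form, `-1 ≠ k ^ i` for `i < t` : `2 t ≤ n`;
* `exists_lift` : the elements in `P` from the ones in `Soc P`.
-/

set_option autoImplicit false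

universe u v w

namespace Cfsg.Agent.H489.EP

open Polynomial Cfsg Cfsg.Geo Cfsg.Agent.H915.LD

section mat

variable {ι : Type} [Fintype ι] [DecidableEq ι] {F : Type u} [Field F]

theorem pow_root {X Y : GL ι F} {k : ℕ} (h : Y * X * Y⁻¹ = X ^ k) {K : Type v} [Field K] [Algebra F K] {l : K}
    (hl : aeval l (X : Matrix ι ι F).charpoly = 0) : aeval (l ^ k) (X : Matrix ι ι F).charpoly = 0 := by
  have key : ∀ (y : Matrix ι ι F) (c : K), aeval c y.charpoly = 0 ↔ c ∈ spectrum K (y.map (algebraMap F K)) := by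
    intro y c
    rw [Matrix.mem_spectrum_iff_isRoot_charpoly, IsRoot.def, Matrix.charpoly_map, eval_map_algebraMap]
  have h1 : ((X ^ k : GL ι F) : Matrix ι ι F).charpoly = (X : Matrix ι ι F).charpoly := by
    rw [← h, Units.val_mul, Units.val_mul, Matrix.coe_units_inv]
    exact Matrix.charpoly_units_conj Y X
  rw [← h1, Units.val_pow_eq_pow_val, key, Matrix.map_pow]
  exact spectrum.pow_mem_pow _ _ ((key _ _).1 hl)

theorem iter_root {X Y : GL ι F} {k : ℕ} (h : Y * X * Y⁻¹ = X ^ k) {K : Type v} [Field K] [Algebra F K] {l : K}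
    (hl : aeval l (X : Matrix ι ι F).charpoly = 0) (i : ℕ) : aeval (l ^ k ^ i) (X : Matrix ι ι F).charpoly = 0 := by
  induction i with
  | zero => rwa [pow_zero, pow_one]
  | succ i ih =>
    rw [pow_succ, pow_mul]
    exact pow_root h ih

/-- a finite set of eigenvalues -/
theorem card_le_of_roots {X : Matrix ι ι F} {K : Type v} [Field K] [Algebra F K] (S : Finset K)
    (h : ∀ l ∈ S, aeval l X.charpoly = 0) : S.card ≤ Fintype.card ι := by
  classical
  have hne : (X.charpoly.map (algebraMap F K)) ≠ 0 := (X.charpoly_monic.map _).ne_zero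
  have h1 : S ⊆ (X.charpoly.map (algebraMap F K)).roots.toFinset := by
    intro l hl
    rw [Multiset.mem_toFinset, mem_roots hne, IsRoot.def, eval_map_algebraMap]
    exact h l hl
  calc S.card ≤ (X.charpoly.map (algebraMap F K)).roots.toFinset.card := Finset.card_le_card h1
    _ ≤ Multiset.card (X.charpoly.map (algebraMap F K)).roots := Multiset.toFinset_card_le _
    _ ≤ (X.charpoly.map (algebraMap F K)).natDegree := card_roots' _
    _ = Fintype.card ι := by rw [natDegree_map, Matrix.charpoly_natDegree_eq_dim]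

theorem exists_root {X : GL ι F} {s : ℕ} (hs : s.Prime) (hsF : (s : F) ≠ 0) (hX : X ^ s = 1) (hX1 : X ≠ 1) :
    ∃ l : AlgebraicClosure F, aeval l (X : Matrix ι ι F).charpoly = 0 ∧ orderOf l = s := by
  have := Fact.mk hs
  obtain ⟨l, h1, h2⟩ := Cfsg.Agent.H122.Cyc.exists_root (g := (X : Matrix ι ι F)) (p := s) (a := 1) hsF le_rfl
    (by rw [pow_one, ← Units.val_pow_eq_pow_val, hX, Units.val_one]) (by
      rw [Nat.sub_self, pow_zero, pow_one]
      exact fun h => hX1 (Units.ext h))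
  exact ⟨l, h1, by rw [h2, pow_one]⟩

theorem coprime_of {X Y : GL ι F} {s k : ℕ} (hs : s.Prime) (hX : X ^ s = 1) (hX1 : X ≠ 1)
    (h : Y * X * Y⁻¹ = X ^ k) : s.Coprime k := by
  rw [Nat.Prime.coprime_iff_not_dvd hs]
  rintro ⟨c, rfl⟩
  rw [pow_mul, hX, one_pow] at h
  apply hX1
  have h5 : X = Y⁻¹ * (Y * X * Y⁻¹) * Y := by group
  rw [h5, h]; group

theorem ne_aux {s k t : ℕ} (hks : s.Coprime k) (hk : ∀ i < t, 0 < i → k ^ i % s ≠ 1 % s) {i j : ℕ} (hij : i < j)
    (hj : j < t) : ¬ k ^ i ≡ k ^ j [MOD s] := by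
  intro h
  have h4 : k ^ i * 1 ≡ k ^ i * k ^ (j - i) [MOD s] := by
    rw [mul_one, ← pow_add]
    have : i + (j - i) = j := by omega
    rwa [this]
  have h5 := Nat.ModEq.cancel_left_of_coprime (hks.pow_right i) h4
  exact hk (j - i) (by omega) (by omega) h5.symm

theorem inj_aux {K : Type v} [Field K] {l : K} {s k t : ℕ} (hl : orderOf l = s) (hl0 : l ≠ 0) (hks : s.Coprime k)
    (hk : ∀ i < t, 0 < i → k ^ i % s ≠ 1 % s) : Set.InjOn (fun i : ℕ => l ^ k ^ i) (Finset.range t : Set ℕ) := by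
  intro i hi j hj hij
  simp only [Finset.coe_range, Set.mem_Iio] at hi hj hij
  have h0 : orderOf (Units.mk0 l hl0) = s := by rw [← hl, ← orderOf_units, Units.val_mk0]
  have h1 : k ^ i ≡ k ^ j [MOD s] := by
    rw [← h0, ← pow_eq_pow_iff_modEq]
    apply Units.ext
    rw [Units.val_pow_eq_pow_val, Units.val_pow_eq_pow_val, Units.val_mk0]
    exact hij
  rcases lt_trichotomy i j with h | h | h
  · exact absurd h1 (ne_aux hks hk h hj)
  · exact h
  · exact absurd h1.symm (ne_aux hks hk h hi)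

/-- **The bound for the dimension.** -/
theorem bound {X Y : GL ι F} {s k t : ℕ} (hs : s.Prime) (hsF : (s : F) ≠ 0) (hX : X ^ s = 1) (hX1 : X ≠ 1)
    (h : Y * X * Y⁻¹ = X ^ k) (hk : ∀ i < t, 0 < i → k ^ i % s ≠ 1 % s) : t ≤ Fintype.card ι := by
  classical
  obtain ⟨l, hl, hls⟩ := exists_root hs hsF hX hX1
  have hl0 : l ≠ 0 := by
    rintro rfl
    rw [orderOf_zero] at hls
    exact hs.ne_zero hls.symm
  have hinj := inj_aux hls hl0 (coprime_of hs hX hX1 h) hk
  have := card_le_of_roots (X := (X : Matrix ι ι F)) ((Finset.range t).image fun i => l ^ k ^ i) (by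
    intro m hm
    obtain ⟨i, -, rfl⟩ := Finset.mem_image.1 hm
    exact iter_root h hl i)
  rwa [Finset.card_image_of_injOn hinj, Finset.card_range] at this

/-- **The bound for the dimension, isometries.** -/
theorem bound_inv {X Y : GL ι F} {s k t : ℕ} (hs : s.Prime) (hsF : (s : F) ≠ 0) (hX : X ^ s = 1) (hX1 : X ≠ 1)
    (h : Y * X * Y⁻¹ = X ^ k) (hk : ∀ i < t, 0 < i → k ^ i % s ≠ 1 % s) (hk' : ∀ i < t, (k ^ i + 1) % s ≠ 0)
    {J : Matrix ι ι F} (hJ : IsUnit J.det) (hXJ : (X : Matrix ι ι F).transpose * J * (X : Matrix ι ι F) = J) :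
    2 * t ≤ Fintype.card ι := by
  classical
  obtain ⟨l, hl, hls⟩ := exists_root hs hsF hX hX1
  have hks := coprime_of hs hX hX1 h
  have hl0 : l ≠ 0 := by
    rintro rfl
    rw [orderOf_zero] at hls
    exact hs.ne_zero hls.symm
  have hinj := inj_aux hls hl0 hks hk
  have haux : ∀ i j : ℕ, i ≤ j → j < t → ¬ s ∣ k ^ i + k ^ j := by
    intro i j hij hj hd
    have h1 : k ^ i + k ^ j = k ^ i * (k ^ (j - i) + 1) := by
      have h2 : k ^ j = k ^ i * k ^ (j - i) := by
        rw [← pow_add]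
        congr 1
        omega
      rw [h2]; ring
    rw [h1] at hd
    have h3 := (hks.pow_right i).dvd_of_dvd_mul_left hd
    exact hk' (j - i) (by omega) (Nat.mod_eq_zero_of_dvd h3)
  set S₁ := (Finset.range t).image fun i => l ^ k ^ i with hS₁
  set S₂ := S₁.image fun m => m⁻¹ with hS₂
  have hc1 : S₁.card = t := by rw [hS₁, Finset.card_image_of_injOn hinj, Finset.card_range]
  have hc2 : S₂.card = t := by rw [hS₂, Finset.card_image_of_injective _ inv_injective, hc1]
  have hdisj : Disjoint S₁ S₂ := by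
    rw [Finset.disjoint_left]
    intro m hm1 hm2
    obtain ⟨i, hi, rfl⟩ := Finset.mem_image.1 hm1
    obtain ⟨m', hm', h1⟩ := Finset.mem_image.1 hm2
    obtain ⟨j, hj, rfl⟩ := Finset.mem_image.1 hm'
    have h2 : l ^ (k ^ i + k ^ j) = 1 := by
      rw [pow_add, ← h1]
      exact inv_mul_cancel₀ (pow_ne_zero _ hl0)
    have h3 : s ∣ k ^ i + k ^ j := by rw [← hls]; exact orderOf_dvd_of_pow_eq_one h2
    rw [Finset.mem_range] at hi hj
    rcases le_total i j with h4 | h4
    · exact haux i j h4 hj h3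
    · exact haux j i h4 hi (by rwa [add_comm] at h3)
  have := card_le_of_roots (X := (X : Matrix ι ι F)) (S₁ ∪ S₂) (by
    intro m hm
    rcases Finset.mem_union.1 hm with hm | hm
    · obtain ⟨i, -, rfl⟩ := Finset.mem_image.1 hm
      exact iter_root h hl i
    · obtain ⟨m', hm', rfl⟩ := Finset.mem_image.1 hm
      obtain ⟨j, hj, rfl⟩ := Finset.mem_image.1 hm'
      exact Cfsg.Agent.H122.Cyc.inv_root hJ hXJ (pow_ne_zero _ hl0) (iter_root h hl j))
  rw [Finset.card_union_of_disjoint hdisj, hc1, hc2] at this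
  omega

/-- the Gram matrix of a nondegenerate bilinear form -/
theorem exists_gram {f : (ι → F) → (ι → F) → F} (hf : IsBilinearForm f) (hn : IsNondegenerateForm f) :
    ∃ J : Matrix ι ι F, IsUnit J.det ∧ ∀ X : Matrix ι ι F, (∀ u v, f (X.mulVec u) (X.mulVec v) = f u v) →
      X.transpose * J * X = J := by
  let B : LinearMap.BilinForm F (ι → F) := LinearMap.mk₂ F f (fun x y v => hf.add_left x y v)
    (fun c x v => hf.smul_left c x v) (fun v x y => hf.add_right v x y) (fun c v x => hf.smul_right c v x)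
  have hB : ∀ x y, B x y = f x y := fun x y => rfl
  let J : Matrix ι ι F := LinearMap.BilinForm.toMatrix' B
  have hJ : ∀ x y, f x y = dotProduct x (J.mulVec y) := by
    intro x y
    rw [← hB]
    have h1 : B = Matrix.toBilin' J := (Matrix.toBilin'_toMatrix' B).symm
    conv_lhs => rw [h1]
    rw [Matrix.toBilin'_apply']
  refine ⟨J, ?_, ?_⟩
  · rw [isUnit_iff_ne_zero]
    intro h0
    obtain ⟨v, hv, hv0⟩ := Matrix.exists_mulVec_eq_zero_iff.2 h0
    obtain ⟨x, hx⟩ := (hn v hv).1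
    apply hx
    rw [hJ, hv0, dotProduct_zero]
  · intro X hX
    ext i j
    have h1 := hX (Pi.single i 1) (Pi.single j 1)
    rw [hJ, hJ] at h1
    have h2 : ∀ M : Matrix ι ι F, dotProduct (Pi.single i 1) (M.mulVec (Pi.single j 1)) = M i j := by
      intro M
      rw [single_one_dotProduct, Matrix.mulVec_single_one]
      rfl
    rw [h2 J] at h1
    rw [← h1, ← h2 (X.transpose * J * X), ← Matrix.mulVec_mulVec, ← Matrix.mulVec_mulVec, Matrix.dotProduct_mulVec,
      Matrix.vecMul_transpose]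

end mat

/-- the elements of `P` -/
theorem exists_lift {ι : Type} [Fintype ι] [DecidableEq ι] {F : Type u} [Field F] {P : Subgroup (GL ι F)}
    {T : Type v} [Group T] (e : Soc P ≃* T) {s : ℕ}
    (hcop : (Nat.card ((scalars ι F).subgroupOf P)).Coprime s) {x y : T} (hx1 : x ≠ 1) (hx : x ^ s = 1) {k : ℕ}
    (h : y * x * y⁻¹ = x ^ k) : ∃ X ∈ P, ∃ Y : GL ι F, X ^ s = 1 ∧ X ≠ 1 ∧ Y * X * Y⁻¹ = X ^ k := by
  have hk := ker_comp e
  have hsurj : Function.Surjective (e.toMonoidHom.comp (toSoc P)) := e.surjective.comp (toSoc_surjective P)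
  have hc : ∀ x, (e.toMonoidHom.comp (toSoc P)) x = 1 → ∀ y, x * y = y * x := by
    intro x hx y
    have h2 : x ∈ (e.toMonoidHom.comp (toSoc P)).ker := hx
    rw [hk] at h2
    exact ((Subgroup.mem_center_iff.1 (scalars_le_center h2)) y).symm
  have hcop' : (Nat.card (e.toMonoidHom.comp (toSoc P)).ker).Coprime s := by rw [hk]; exact hcop
  obtain ⟨X, hX, hXs⟩ := Cfsg.Agent.H912.Bd.exists_lift hcop' hsurj (e := x) (k := 1) (by rw [pow_one, hx])
  obtain ⟨Y, hY⟩ := hsurj y
  rw [pow_one] at hXs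
  refine ⟨X, X.2, Y, congrArg Subtype.val hXs, ?_, ?_⟩
  · intro h1
    apply hx1
    have h2 : X = 1 := Subtype.ext h1
    rw [← hX, h2, map_one]
  · have h1 : Y * X * Y⁻¹ = X ^ k := by
      refine Cfsg.Agent.H912.Bd.lift_unique hc hcop' (k := 1) (l := 1) ?_ ?_ ?_
      · rw [map_mul, map_mul, map_inv, map_pow, hX, hY, h]
      · rw [pow_one, conj_pow, hXs, mul_one, mul_inv_cancel]
      · rw [pow_one, ← pow_mul, mul_comm, pow_mul, hXs, one_pow]
    exact congrArg Subtype.val h1

end Cfsg.Agent.H489.EP
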